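import Cfsg.Agent.H407.Spec

/-!
# Subgroups of `SL(6, 3)` and `SL(5, 3)` (helper407)

* `WW`: an elementary abelian 3-subgroup of `SL(6, 3)` normalized by the element `w11` of order 11;
* `x5`, `e5`: a Frobenius group of order 55 in `SL(5, 3)`.
-/

set_option autoImplicit false
set_option maxRecDepth 100000

namespace Cfsg.Agent.H407.Elems

open Matrix Mats Subgroup

/-- the transvections `1 + E_{i 5}` -/
def T : Fin 5 → SL6 := ![
  ⟨!![1,0,0,0,0,1;0,1,0,0,0,0;0,0,1,0,0,0;0,0,0,1,0,0;0,0,0,0,1,0;0,0,0,0,0,1], det_of_lap (by decide +kernel)⟩,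
  ⟨!![1,0,0,0,0,0;0,1,0,0,0,1;0,0,1,0,0,0;0,0,0,1,0,0;0,0,0,0,1,0;0,0,0,0,0,1], det_of_lap (by decide +kernel)⟩,
  ⟨!![1,0,0,0,0,0;0,1,0,0,0,0;0,0,1,0,0,1;0,0,0,1,0,0;0,0,0,0,1,0;0,0,0,0,0,1], det_of_lap (by decide +kernel)⟩,
  ⟨!![1,0,0,0,0,0;0,1,0,0,0,0;0,0,1,0,0,0;0,0,0,1,0,1;0,0,0,0,1,0;0,0,0,0,0,1], det_of_lap (by decide +kernel)⟩,
  ⟨!![1,0,0,0,0,0;0,1,0,0,0,0;0,0,1,0,0,0;0,0,0,1,0,0;0,0,0,0,1,1;0,0,0,0,0,1], det_of_lap (by decide +kernel)⟩]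

def L : Fin 5 → List (Fin 5) := ![[0, 0, 2, 3, 3, 4, 4], [0, 0, 1, 1, 3], [1, 1, 2, 2, 4], [0, 2, 2, 3, 3, 4, 4],
  [0, 0, 1, 3, 3]]

theorem T_comm : ∀ i j, T i * T j = T j * T i := by decide +kernel
theorem T_cube : ∀ i, T i * T i * T i = 1 := by decide +kernel
theorem T_conj : ∀ i, w11 * T i = ((L i).map T).prod * w11 := by decide +kernel
theorem T_ne : T 0 ≠ 1 ∧ T 0 ≠ m1 := by decide +kernel

/-- the elementary abelian 3-subgroup -/
def WW : Subgroup SL6 := closure (Set.range T)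

theorem WW_comm : IsMulCommutative WW := by
  refine Subgroup.isMulCommutative_closure ?_
  rintro _ ⟨i, rfl⟩ _ ⟨j, rfl⟩
  exact T_comm i j

theorem WW_cube {g : SL6} (hg : g ∈ WW) : g ^ 3 = 1 := by
  induction hg using closure_induction with
  | mem x hx =>
    obtain ⟨i, rfl⟩ := hx
    have := T_cube i
    simpa only [pow_succ, pow_zero, one_mul] using this
  | one => exact one_pow 3
  | mul x y hx hy px py =>
    have h : Commute x y := congrArg Subtype.val (WW_comm.is_comm.comm ⟨x, hx⟩ ⟨y, hy⟩)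
    rw [h.mul_pow, px, py, one_mul]
  | inv x _ px => rw [inv_pow, px, inv_one]

theorem WW_three : IsPGroup 3 WW := fun g => ⟨1, Subtype.ext (by
  change (g : SL6) ^ 3 ^ 1 = 1
  rw [pow_one]; exact WW_cube g.2)⟩

theorem WW_conj {g : SL6} (hg : g ∈ WW) : w11 * g * w11⁻¹ ∈ WW := by
  induction hg using closure_induction with
  | mem x hx =>
    obtain ⟨i, rfl⟩ := hx
    rw [T_conj i, mul_inv_cancel_right]
    refine Subgroup.list_prod_mem _ ?_
    intro x hx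
    rw [List.mem_map] at hx
    obtain ⟨j, -, rfl⟩ := hx
    exact subset_closure ⟨j, rfl⟩
  | one => rw [mul_one, mul_inv_cancel]; exact one_mem _
  | mul x y _ _ px py =>
    have := mul_mem px py
    simpa [mul_assoc] using this
  | inv x _ px =>
    have := inv_mem px
    simpa [mul_assoc] using this

/-! ### `SL(5, 3)` -/

/-- `SL(5, 3)` -/
abbrev SL5 := Matrix.SpecialLinearGroup (Fin 5) (ZMod 3)

theorem det_of_lap5 {M : Matrix (Fin 5) (Fin 5) (ZMod 3)} (h : lap 5 M = 1) : M.det = 1 := by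
  rw [← lap_eq]; exact h

def x5 : SL5 := ⟨!![2,2,0,1,2;0,2,2,0,1;1,0,2,2,0;2,1,0,2,2;2,0,1,2,0], det_of_lap5 (by decide +kernel)⟩
def e5 : SL5 := ⟨!![1,0,2,1,2;0,0,1,2,2;0,0,0,1,0;0,1,0,2,1;0,0,1,0,0], det_of_lap5 (by decide +kernel)⟩
def x52 : SL5 := ⟨!![1,0,0,2,2;1,1,0,0,2;2,1,1,0,0;0,2,1,1,0;0,0,2,2,2], det_of_lap5 (by decide +kernel)⟩
def x54 : SL5 := ⟨!![1,1,0,2,0;2,1,1,0,2;2,2,1,1,0;1,2,2,1,1;1,0,2,0,1], det_of_lap5 (by decide +kernel)⟩
def x58 : SL5 := ⟨!![2,0,2,1,1;2,2,0,2,1;0,2,2,0,2;2,0,2,2,0;0,2,1,1,1], det_of_lap5 (by decide +kernel)⟩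

theorem x52e : x5 * x5 = x52 := by decide +kernel
theorem x54e : x52 * x52 = x54 := by decide +kernel
theorem x58e : x54 * x54 = x58 := by decide +kernel
theorem x511e : x58 * (x52 * x5) = 1 := by decide +kernel
theorem e5e : e5 * (e5 * (e5 * (e5 * e5))) = 1 := by decide +kernel
theorem ex : e5 * x5 = x5 * x5 * x5 * e5 := by decide +kernel
theorem x5_ne : x5 ≠ 1 := by decide +kernel
theorem e5_ne : e5 ≠ 1 := by decide +kernel

theorem x5_pow : x5 ^ 11 = 1 := by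
  rw [← x511e, ← x58e, ← x54e, ← x52e]
  simp only [pow_succ, pow_zero, one_mul, mul_assoc]

theorem e5_pow : e5 ^ 5 = 1 := by
  rw [← e5e]
  simp only [pow_succ, pow_zero, one_mul, mul_assoc]

/-- `PSL(5, 3)` -/
abbrev L5 := Matrix.ProjectiveSpecialLinearGroup (Fin 5) (ZMod 3)

/-- the projection -/
def pr5 : SL5 →* L5 := QuotientGroup.mk' _

theorem pr5_eq_one {g : SL5} : pr5 g = 1 ↔ g = 1 := by
  constructor
  · intro h
    rw [pr5, QuotientGroup.mk'_apply, QuotientGroup.eq_one_iff, Matrix.SpecialLinearGroup.mem_center_iff] at h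
    obtain ⟨r, hr5, hr⟩ := h
    have h1 : r = 1 := (by decide : ∀ r : ZMod 3, r ^ Fintype.card (Fin 5) = 1 → r = 1) r hr5
    apply Subtype.ext
    rw [← hr, h1, map_one]; rfl
  · rintro rfl
    exact map_one _

theorem orderOf_x5 : orderOf (pr5 x5) = 11 := by
  have : Fact (Nat.Prime 11) := ⟨by norm_num⟩
  exact orderOf_eq_prime (by rw [← map_pow, x5_pow, map_one]) (fun h => x5_ne (pr5_eq_one.1 h))

theorem orderOf_e5 : orderOf (pr5 e5) = 5 := by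
  have : Fact (Nat.Prime 5) := ⟨by norm_num⟩
  exact orderOf_eq_prime (by rw [← map_pow, e5_pow, map_one]) (fun h => e5_ne (pr5_eq_one.1 h))

theorem conj_x5 : e5 * x5 * e5⁻¹ = x5 ^ 3 := by
  rw [ex, mul_inv_cancel_right]
  simp only [pow_succ, pow_zero, one_mul]

theorem card_L5 : Nat.card L5 = 2 ^ 9 * 3 ^ 10 * 5 * 11 ^ 2 * 13 := by
  have h := Cfsg.Agent.S0243.result (F := ZMod 3) (ZMod.card 3) 5 (by norm_num)
  rw [show Nat.gcd 5 (3 - 1) = 1 from rfl, one_mul] at h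
  have e : ∏ i : Fin 5, (3 ^ 5 - 3 ^ (i : ℕ)) = 2 * (2 ^ 9 * 3 ^ 10 * 5 * 11 ^ 2 * 13) := by
    decide +kernel
  rw [e] at h
  have h' : 2 * Nat.card L5 = 2 * (2 ^ 9 * 3 ^ 10 * 5 * 11 ^ 2 * 13) := h
  omega

end Cfsg.Agent.H407.Elems
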