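import Cfsg.Agent.H407.Exc

/-!
# The finite checks (helper407)

Simple groups `S` of Lie type of characteristic different from 5 all of whose prime divisors divide the order of
`PΩ(2n+1,5)`, `n` small.
-/

set_option autoImplicit false
set_option maxRecDepth 1000000

namespace Cfsg.Agent.H407.Small

open Cfsg Cfsg.Agent.OrdDiv Cfsg.Agent.H436 Cfsg.Agent.H407.Engine Cfsg.Agent.H407.Fam Cfsg.Agent.H407.Exc
open Cfsg.Agent.H407.PList

theorem primes_of {X : List ℕ} (h : X.all isP = true) : ∀ x ∈ X, x.Prime :=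
  fun x hx => prime_of_isP (List.all_eq_true.1 h x hx)

/-- the characteristics -/
def Q (n : ℕ) : List ℕ := (P n).filter fun p => p != 5

theorem mem_Q {n p : ℕ} (h5 : p ≠ 5) (h : p ∈ P n) : p ∈ Q n := by
  unfold Q
  rw [List.mem_filter]
  exact ⟨h, by simpa using h5⟩

/-- the primes with label `2 n` -/
def RS (n : ℕ) : List ℕ := (LP.filter fun x => x.2 == 2 * n).map Prod.fst

theorem prime_RS {n r : ℕ} (h : r ∈ RS n) : r.Prime := by
  obtain ⟨x, hx, rfl⟩ := List.mem_map.1 h
  exact prime_LP (List.mem_filter.1 hx).1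

theorem label_LP {x : ℕ × ℕ} (hx : x ∈ LP) (h2 : 2 ≤ x.2) : x.1 ≠ 2 := by
  intro h
  have : (LP.all fun x => x.1 != 2 || decide (x.2 < 2)) = true := by decide
  have h3 := List.all_eq_true.1 this x hx
  rw [h] at h3
  simp at h3
  omega

theorem ne_two_RS {n r : ℕ} (hn : 1 ≤ n) (h : r ∈ RS n) : r ≠ 2 := by
  obtain ⟨x, hx, rfl⟩ := List.mem_map.1 h
  rw [List.mem_filter, beq_iff_eq] at hx
  exact label_LP hx.1 (by omega)

end Cfsg.Agent.H407.Small
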