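import Cfsg.Agent.H407.SmallBase

/-!
# The finite checks: symplectic groups (helper407)
-/

set_option autoImplicit false
set_option maxRecDepth 1000000

namespace Cfsg.Agent.H407.Small

open Cfsg Cfsg.Agent.OrdDiv Cfsg.Agent.H436 Cfsg.Agent.H407.Engine Cfsg.Agent.H407.Fam Cfsg.Agent.H407.Exc
open Cfsg.Agent.H407.PList

theorem chkC6 : chk (P 6) (Q 6) [4] [17, 19, 41, 43, 61] [] (inB wtS 2 0 (RS 6)) = true := by decide +kernel
theorem chkC7 : chk (P 7) (Q 7) [4] [17, 19, 43, 2437] [] (inB wtS 2 0 (RS 7)) = true := by decide +kernel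
theorem chkC8 : chk (P 8) (Q 8) [4] [19, 41, 43, 719] [] (inB wtS 2 0 (RS 8)) = true := by decide +kernel
theorem chkC9 : chk (P 9) (Q 9) [4] [23, 41] [] (inB wtS 2 0 (RS 9)) = true := by decide +kernel
theorem chkC10 : chk (P 10) (Q 10) [4] [23, 37, 43, 61, 97, 101, 151, 211, 257, 421, 2741, 2749] [] (inB wtS 2 0 (RS 10)) = true := by decide +kernel
theorem chkC11 : chk (P 11) (Q 11) [3, 4, 5, 6, 7, 8, 9, 10, 12, 14, 16, 18] [37] [] (inB wtS 9 0 (RS 11)) = true := by decide +kernel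
theorem chkC12 : chk (P 12) (Q 12) [3, 4, 5, 6, 7, 8, 9, 10, 12, 14, 16, 18] [37] [] (inB wtS 9 0 (RS 12)) = true := by decide +kernel
theorem chkC13 : chk (P 13) (Q 13) [3, 4, 5, 6, 7, 8, 9, 10, 11, 12, 14, 16, 18, 20, 22] [37] [] (inB wtS 11 0 (RS 13)) = true := by decide +kernel
theorem chkC14 : chk (P 14) (Q 14) [3, 4, 5, 6, 7, 8, 9, 10, 11, 12, 14, 16, 18, 20, 22] [37] [] (inB wtS 11 0 (RS 14)) = true := by decide +kernel

/-- lower bound for the rank -/
def m0C (n : ℕ) : ℕ := if n ≤ 10 then 2 else if n = 11 then 9 else if n = 12 then 9 else 11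

theorem smallC {n : ℕ} (h6 : 6 ≤ n) (h14 : n ≤ 14) {N p f m : ℕ} (hp : p.Prime) (hf : f ≠ 0)
    (hFD : FD N (p ^ f) wtS m 0) (hm : m0C n ≤ m) (hP : ∀ r, r.Prime → r ∣ N → r ∈ P n) (h5 : p ≠ 5)
    (hRS : ∀ r ∈ RS n, r ∣ N) : False := by
  have hRS' : ∀ r ∈ RS n, r.Prime ∧ r ≠ 2 ∧ r ∣ N := fun r hr => ⟨prime_RS hr, ne_two_RS (by omega) hr, hRS r hr⟩
  interval_cases n
  · exact cl wtS_lt chkC6 (by decide) (by decide) (primes_of (by decide +kernel)) hp hf hFD hm hP (mem_Q h5) hRS'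
  · exact cl wtS_lt chkC7 (by decide) (by decide) (primes_of (by decide +kernel)) hp hf hFD hm hP (mem_Q h5) hRS'
  · exact cl wtS_lt chkC8 (by decide) (by decide) (primes_of (by decide +kernel)) hp hf hFD hm hP (mem_Q h5) hRS'
  · exact cl wtS_lt chkC9 (by decide) (by decide) (primes_of (by decide +kernel)) hp hf hFD hm hP (mem_Q h5) hRS'
  · exact cl wtS_lt chkC10 (by decide) (by decide) (primes_of (by decide +kernel)) hp hf hFD hm hP (mem_Q h5) hRS'
  · exact cl wtS_lt chkC11 (by decide) (by decide) (primes_of (by decide +kernel)) hp hf hFD hm hP (mem_Q h5) hRS'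
  · exact cl wtS_lt chkC12 (by decide) (by decide) (primes_of (by decide +kernel)) hp hf hFD hm hP (mem_Q h5) hRS'
  · exact cl wtS_lt chkC13 (by decide) (by decide) (primes_of (by decide +kernel)) hp hf hFD hm hP (mem_Q h5) hRS'
  · exact cl wtS_lt chkC14 (by decide) (by decide) (primes_of (by decide +kernel)) hp hf hFD hm hP (mem_Q h5) hRS'

end Cfsg.Agent.H407.Small
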