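import Cfsg.Agent.H407.SmallBase

/-!
# The finite checks: linear groups (helper407)
-/

set_option autoImplicit false
set_option maxRecDepth 1000000

namespace Cfsg.Agent.H407.Small

open Cfsg Cfsg.Agent.OrdDiv Cfsg.Agent.H436 Cfsg.Agent.H407.Engine Cfsg.Agent.H407.Fam Cfsg.Agent.H407.Exc
open Cfsg.Agent.H407.PList

theorem chkL6 : chk (P 6) (Q 6) [3] [17, 41, 43, 151] [] (inB wtL 3 0 (RS 6)) = true := by decide +kernel
theorem chkL7 : chk (P 7) (Q 7) [3] [17, 19, 97] [] (inB wtL 3 0 (RS 7)) = true := by decide +kernel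
theorem chkL8 : chk (P 8) (Q 8) [3] [19, 23, 41] [] (inB wtL 3 0 (RS 8)) = true := by decide +kernel
theorem chkL9 : chk (P 9) (Q 9) [3] [23, 37, 41, 43, 67, 73] [] (inB wtL 3 0 (RS 9)) = true := by decide +kernel
theorem chkL10 : chk (P 10) (Q 10) [3] [23, 61, 191] [] (inB wtL 3 0 (RS 10)) = true := by decide +kernel
theorem chkL11 : chk (P 11) (Q 11) [3, 4, 5, 6, 7, 8, 9, 10, 11, 12, 13] [37, 43, 59, 61] [] (inB wtL 13 0 (RS 11)) = true := by decide +kernel
theorem chkL12 : chk (P 12) (Q 12) [3, 4, 5, 6, 7, 8, 9, 10, 11, 12, 13, 14, 15] [37, 43, 59, 61, 97] [] (inB wtL 15 0 (RS 12)) = true := by decide +kernel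
theorem chkL13 : chk (P 13) (Q 13) [3, 4, 5, 6, 7, 8, 9, 10, 11, 12, 13, 14, 15, 16, 17] [37, 43, 59, 61] [] (inB wtL 17 0 (RS 13)) = true := by decide +kernel
theorem chkL14 : chk (P 14) (Q 14) [3, 4, 5, 6, 7, 8, 9, 10, 11, 12, 13, 14, 15, 16, 17] [37, 43, 59, 61] [] (inB wtL 17 0 (RS 14)) = true := by decide +kernel

/-- lower bound for the rank -/
def m0L (n : ℕ) : ℕ := if n ≤ 10 then 3 else if n = 11 then 13 else if n = 12 then 15 else 17

theorem smallL {n : ℕ} (h6 : 6 ≤ n) (h14 : n ≤ 14) {N p f m : ℕ} (hp : p.Prime) (hf : f ≠ 0)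
    (hFD : FD N (p ^ f) wtL m 0) (hm : m0L n ≤ m) (hP : ∀ r, r.Prime → r ∣ N → r ∈ P n) (h5 : p ≠ 5)
    (hRS : ∀ r ∈ RS n, r ∣ N) : False := by
  have hRS' : ∀ r ∈ RS n, r.Prime ∧ r ≠ 2 ∧ r ∣ N := fun r hr => ⟨prime_RS hr, ne_two_RS (by omega) hr, hRS r hr⟩
  interval_cases n
  · exact cl wtL_lt chkL6 (by decide) (by decide) (primes_of (by decide +kernel)) hp hf hFD hm hP (mem_Q h5) hRS'
  · exact cl wtL_lt chkL7 (by decide) (by decide) (primes_of (by decide +kernel)) hp hf hFD hm hP (mem_Q h5) hRS'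
  · exact cl wtL_lt chkL8 (by decide) (by decide) (primes_of (by decide +kernel)) hp hf hFD hm hP (mem_Q h5) hRS'
  · exact cl wtL_lt chkL9 (by decide) (by decide) (primes_of (by decide +kernel)) hp hf hFD hm hP (mem_Q h5) hRS'
  · exact cl wtL_lt chkL10 (by decide) (by decide) (primes_of (by decide +kernel)) hp hf hFD hm hP (mem_Q h5) hRS'
  · exact cl wtL_lt chkL11 (by decide) (by decide) (primes_of (by decide +kernel)) hp hf hFD hm hP (mem_Q h5) hRS'
  · exact cl wtL_lt chkL12 (by decide) (by decide) (primes_of (by decide +kernel)) hp hf hFD hm hP (mem_Q h5) hRS'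
  · exact cl wtL_lt chkL13 (by decide) (by decide) (primes_of (by decide +kernel)) hp hf hFD hm hP (mem_Q h5) hRS'
  · exact cl wtL_lt chkL14 (by decide) (by decide) (primes_of (by decide +kernel)) hp hf hFD hm hP (mem_Q h5) hRS'

end Cfsg.Agent.H407.Small
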