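import Cfsg.Agent.H407.SmallBase

/-!
# The finite checks: the other exceptional groups (helper407)
-/

set_option autoImplicit false
set_option maxRecDepth 1000000

namespace Cfsg.Agent.H407.Small

open Cfsg Cfsg.Agent.OrdDiv Cfsg.Agent.H436 Cfsg.Agent.H407.Engine Cfsg.Agent.H407.Fam Cfsg.Agent.H407.Exc
open Cfsg.Agent.H407.PList

theorem chkXE6 : chk (P 8) (Q 8) LE6 [19, 37, 61, 73, 113] [] (inE LE6) = true := by decide +kernel
theorem smallE6 {N p f : ℕ} (hp : p.Prime) (hf : f ≠ 0) (hFD : Inc N (p ^ f) LE6)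
    (hP : ∀ r, r.Prime → r ∣ N → r ∈ P 8) (h5 : p ≠ 5) (hpN : p ∣ N) : (p, f) ∈ ([] : List (ℕ × ℕ)) :=
  exc chkXE6 (by decide) (by decide) (primes_of (by decide +kernel)) hp hf hFD hP
    (mem_Q h5 (hP p hp hpN))

theorem chkX2E6 : chk (P 8) (Q 8) LTE6 [19, 37, 41, 61, 101, 113] [] (inE LTE6) = true := by decide +kernel
theorem smallTE6 {N p f : ℕ} (hp : p.Prime) (hf : f ≠ 0) (hFD : Inc N (p ^ f) LTE6)
    (hP : ∀ r, r.Prime → r ∣ N → r ∈ P 8) (h5 : p ≠ 5) (hpN : p ∣ N) : (p, f) ∈ ([] : List (ℕ × ℕ)) :=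
  exc chkX2E6 (by decide) (by decide) (primes_of (by decide +kernel)) hp hf hFD hP
    (mem_Q h5 (hP p hp hpN))

theorem chkXF4 : chk (P 8) (Q 8) LF4 [19, 41, 61, 73, 97, 113, 241, 307, 1657] [(2, 1)] (inE LF4) = true := by decide +kernel
theorem smallF4 {N p f : ℕ} (hp : p.Prime) (hf : f ≠ 0) (hFD : Inc N (p ^ f) LF4)
    (hP : ∀ r, r.Prime → r ∣ N → r ∈ P 8) (h5 : p ≠ 5) (hpN : p ∣ N) : (p, f) ∈ ([(2, 1)] : List (ℕ × ℕ)) :=
  exc chkXF4 (by decide) (by decide) (primes_of (by decide +kernel)) hp hf hFD hP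
    (mem_Q h5 (hP p hp hpN))

theorem chkXG2 : chk (P 6) (Q 6) LG2 [19, 61, 73, 79, 151, 181, 241, 271, 1657] [(2, 1), (3, 1), (2, 2)] (inE LG2) = true := by decide +kernel
theorem smallG2 {N p f : ℕ} (hp : p.Prime) (hf : f ≠ 0) (hFD : Inc N (p ^ f) LG2)
    (hP : ∀ r, r.Prime → r ∣ N → r ∈ P 6) (h5 : p ≠ 5) (hpN : p ∣ N) : (p, f) ∈ ([(2, 1), (3, 1), (2, 2)] : List (ℕ × ℕ)) :=
  exc chkXG2 (by decide) (by decide) (primes_of (by decide +kernel)) hp hf hFD hP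
    (mem_Q h5 (hP p hp hpN))

theorem chkX3D4 : chk (P 6) (Q 6) LTD4 [19, 61, 73, 181, 241, 1657] [(2, 1)] (inE LTD4) = true := by decide +kernel
theorem smallTD4 {N p f : ℕ} (hp : p.Prime) (hf : f ≠ 0) (hFD : Inc N (p ^ f) LTD4)
    (hP : ∀ r, r.Prime → r ∣ N → r ∈ P 6) (h5 : p ≠ 5) (hpN : p ∣ N) : (p, f) ∈ ([(2, 1)] : List (ℕ × ℕ)) :=
  exc chkX3D4 (by decide) (by decide) (primes_of (by decide +kernel)) hp hf hFD hP
    (mem_Q h5 (hP p hp hpN))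

theorem chkX2F4 : chk (P 7) [2] LTF4 [17, 41] [(2, 1)] (inE LTF4) = true := by decide +kernel
theorem smallTF4 {N f : ℕ} (hf : f ≠ 0) (hFD : Inc N (2 ^ f) LTF4)
    (hP : ∀ r, r.Prime → r ∣ N → r ∈ P 7) : (2, f) ∈ ([(2, 1)] : List (ℕ × ℕ)) :=
  exc chkX2F4 (by decide) (by decide) (primes_of (by decide +kernel)) (by norm_num) hf
    hFD hP (List.mem_singleton.2 rfl)

theorem chkX2G2 : chk (P 6) [3] LRee [73, 79, 241, 271] [(3, 1), (3, 4), (3, 52)] (inE LRee) = true := by decide +kernel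
theorem smallRee {N f : ℕ} (hf : f ≠ 0) (hFD : Inc N (3 ^ f) LRee)
    (hP : ∀ r, r.Prime → r ∣ N → r ∈ P 6) : (3, f) ∈ ([(3, 1), (3, 4), (3, 52)] : List (ℕ × ℕ)) :=
  exc chkX2G2 (by decide) (by decide) (primes_of (by decide +kernel)) (by norm_num) hf
    hFD hP (List.mem_singleton.2 rfl)

end Cfsg.Agent.H407.Small
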