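import Cfsg.Agent.H407.Kernel
import Cfsg.Agent.H407.R3

/-!
# The radical is trivial (helper407)

`K` a normal 3-subgroup of the group `G` with the element orders of `PSL(6, 3)`, and `PSL(6, 3)` a subgroup of `G / K`:
then `K = 1`. The central elements of order 3 of `K` are a module for `PSL(6, 3)`, and `R3.main` gives elements of order
21 or 45.
-/

set_option autoImplicit false
set_option linter.unusedSectionVars false

namespace Cfsg.Agent.H407.Three

open Subgroup Cfsg Mats

universe u

section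

variable {G : Type u} [Group G] [Finite G] (K : Subgroup G) [K.Normal]

/-- the central elements of order 3 of `K` -/
def VV : Subgroup G where
  carrier := {g | g ∈ K ∧ (∀ k ∈ K, k * g = g * k) ∧ g ^ 3 = 1}
  one_mem' := ⟨K.one_mem, fun k _ => by rw [mul_one, one_mul], one_pow 3⟩
  mul_mem' := by
    rintro a b ⟨ha, ha', ha3⟩ ⟨hb, hb', hb3⟩
    refine ⟨K.mul_mem ha hb, fun k hk => ?_, ?_⟩
    · rw [← mul_assoc, ha' k hk, mul_assoc, hb' k hk, mul_assoc]
    · rw [(show Commute a b from hb' a ha).mul_pow, ha3, hb3, one_mul]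
  inv_mem' := by
    rintro a ⟨ha, ha', ha3⟩
    refine ⟨K.inv_mem ha, fun k hk => ?_, by rw [inv_pow, ha3, inv_one]⟩
    exact (show Commute k a from ha' k hk).inv_right

theorem mem_VV {g : G} : g ∈ VV K ↔ g ∈ K ∧ (∀ k ∈ K, k * g = g * k) ∧ g ^ 3 = 1 := Iff.rfl

instance : (VV K).Normal := by
  refine ⟨?_⟩
  rintro a ⟨ha, ha', ha3⟩ g
  refine ⟨(inferInstance : K.Normal).conj_mem a ha g, fun k hk => ?_, ?_⟩
  · have h1 := ha' (g⁻¹ * k * g) (by simpa using (inferInstance : K.Normal).conj_mem k hk g⁻¹)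
    have h2 := congrArg (fun t => g * t * g⁻¹) h1
    simpa [mul_assoc] using h2
  · rw [conj_pow, ha3, mul_one, mul_inv_cancel]

instance : CommGroup (VV K) :=
  { (inferInstance : Group (VV K)) with
    mul_comm := fun a b => Subtype.ext (b.2.2.1 a a.2.1) }

instance : Module (ZMod 3) (Additive (VV K)) :=
  AddCommGroup.zmodModule (n := 3) fun v => by
    change Additive.ofMul (v.toMul ^ 3) = Additive.ofMul 1
    exact congrArg Additive.ofMul (Subtype.ext v.toMul.2.2.2)

theorem VV_ne_bot (hK3 : IsPGroup 3 K) (hK : K ≠ ⊥) : VV K ≠ ⊥ := by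
  have : Fact (Nat.Prime 3) := ⟨Nat.prime_three⟩
  have hnt : Nontrivial K := (Subgroup.nontrivial_iff_ne_bot K).2 hK
  have hZ : Nontrivial (center K) := hK3.center_nontrivial
  have hd : 3 ∣ Nat.card (center K) := by
    obtain ⟨n, hn⟩ := IsPGroup.iff_card.1 (hK3.to_subgroup (center K))
    have h1 : 1 < Nat.card (center K) := Finite.one_lt_card
    rw [hn] at h1 ⊢
    exact dvd_pow_self 3 (by rintro rfl; simp at h1)
  obtain ⟨z, hz⟩ := exists_prime_orderOf_dvd_card' 3 hd
  intro h
  have h1 : ((z : K) : G) ∈ VV K := by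
    refine ⟨(z : K).2, fun k hk => ?_, ?_⟩
    · exact congrArg Subtype.val (mem_center_iff.1 z.2 ⟨k, hk⟩)
    · have h2 := pow_orderOf_eq_one z
      rw [hz] at h2
      exact congrArg (fun t : center K => ((t : K) : G)) h2
  rw [h, Subgroup.mem_bot] at h1
  have h2 : z = 1 := Subtype.ext (Subtype.ext h1)
  rw [h2, orderOf_one] at hz
  norm_num at hz

/-- automorphisms as linear maps -/
def toEnd : MulAut (VV K) →* Module.End (ZMod 3) (Additive (VV K)) where
  toFun a := (MonoidHom.toAdditive a.toMonoidHom).toZModLinearMap 3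
  map_one' := rfl
  map_mul' _ _ := rfl

/-- the action of `G / K` -/
def act : G ⧸ K →* MulAut (VV K) := QuotientGroup.lift K MulAut.conjNormal (by
  intro k hk
  ext v
  change ((MulAut.conjNormal k v : VV K) : G) = v
  rw [MulAut.conjNormal_apply, mul_inv_eq_iff_eq_mul]
  exact v.2.2.1 k hk)

theorem act_mk (g : G) (v : VV K) : ((act K (QuotientGroup.mk' K g) v : VV K) : G) = g * v * g⁻¹ :=
  MulAut.conjNormal_apply g v

/-- the representation of `SL(6, 3)` -/
def rho (σ : SL6 →* G ⧸ K) : SL6 →* Module.End (ZMod 3) (Additive (VV K)) := (toEnd K).comp ((act K).comp σ)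

theorem rho_apply {σ : SL6 →* G ⧸ K} {s : SL6} {g : G} (h : σ s = QuotientGroup.mk' K g) (v : Additive (VV K)) :
    (((rho K σ s v).toMul : VV K) : G) = g * (v.toMul : VV K) * g⁻¹ := by
  change ((act K (σ s) v.toMul : VV K) : G) = _
  rw [h, act_mk]

theorem pow_mul_formula {σ : SL6 →* G ⧸ K} {s : SL6} {g : G} (h : σ s = QuotientGroup.mk' K g)
    (v : Additive (VV K)) (w : ℕ → Additive (VV K)) (h0 : w 0 = 0) (hw : ∀ n, w (n + 1) = v + rho K σ s (w n)) :
    ∀ n : ℕ, (((v.toMul : VV K) : G) * g) ^ n = (((w n).toMul : VV K) : G) * g ^ n := by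
  intro n
  induction n with
  | zero => rw [h0, pow_zero, pow_zero, mul_one]; rfl
  | succ n ih =>
    rw [pow_succ', ih, hw]
    change _ = ((v.toMul : VV K) : G) * (((rho K σ s (w n)).toMul : VV K) : G) * g ^ (n + 1)
    rw [rho_apply K h, pow_succ']
    group

theorem not_dvd_orderOf (hK3 : IsPGroup 3 K) {p : ℕ} (hp : p.Prime) (h3 : p ≠ 3) : ¬ p ∣ Nat.card K := by
  intro h
  have : Fact (Nat.Prime 3) := ⟨Nat.prime_three⟩
  obtain ⟨n, hn⟩ := IsPGroup.iff_card.1 hK3
  rw [hn] at h
  exact h3 ((Nat.prime_dvd_prime_iff_eq hp Nat.prime_three).1 (hp.dvd_of_dvd_pow h))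

/-- **The radical is trivial.** -/
theorem eq_bot (hG : Spec G) (hK3 : IsPGroup 3 K) (σ : SL6 →* G ⧸ K) (hσ : ∀ s, σ s = 1 ↔ s = 1 ∨ s = m1) :
    K = ⊥ := by
  by_contra hK
  have hV := VV_ne_bot K hK3 hK
  have hVnt : Nontrivial (VV K) := (Subgroup.nontrivial_iff_ne_bot _).2 hV
  obtain ⟨v0, hv0⟩ := exists_ne (1 : VV K)
  have hz : rho K σ m1 = 1 := by
    have h1 : σ m1 = 1 := (hσ m1).2 (Or.inr rfl)
    change (toEnd K) ((act K) (σ m1)) = 1
    rw [h1, map_one, map_one]
  have hne : ∀ {v : Additive (VV K)}, v ≠ 0 → ((v.toMul : VV K) : G) ≠ 1 := by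
    intro v hv h
    apply hv
    have : v.toMul = 1 := Subtype.ext h
    exact this
  have ho3 : ∀ {v : Additive (VV K)}, v ≠ 0 → orderOf ((v.toMul : VV K) : G) = 3 := by
    intro v hv
    have : Fact (Nat.Prime 3) := ⟨Nat.prime_three⟩
    exact orderOf_eq_prime v.toMul.2.2.2 (hne hv)
  have ha : ∀ v, rho K σ y v = v → v = 0 := by
    intro v hv
    by_contra hv1
    have hy7 : y ^ 7 = 1 := by
      have := R3.y7
      simpa only [pow_succ, pow_zero, one_mul, mul_assoc] using this
    have : Fact (Nat.Prime 7) := ⟨by norm_num⟩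
    have hy : orderOf (σ y) = 7 := by
      refine orderOf_eq_prime ?_ ?_
      · rw [← map_pow, hy7, map_one]
      · rw [Ne, hσ]
        decide +kernel
    obtain ⟨x, hx1, hx2⟩ := Kernel.exists_lift_elem (p := 7) (by norm_num) (QuotientGroup.mk' K)
      (QuotientGroup.mk'_surjective K)
      (by rw [QuotientGroup.ker_mk']; exact not_dvd_orderOf K hK3 (by norm_num) (by norm_num)) (y := σ y)
      ⟨1, by rw [hy, pow_one]⟩
    rw [hy] at hx2
    have h1 := rho_apply K hx1.symm v
    rw [hv] at h1
    have h2 : x * ((v.toMul : VV K) : G) = ((v.toMul : VV K) : G) * x := by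
      rw [eq_comm, mul_inv_eq_iff_eq_mul] at h1
      exact h1
    obtain ⟨z, hz⟩ := Cfsg.Agent.H395.Coclique.exists_mul_of_commute (p := 7) (q := 3) (by norm_num) (by norm_num)
      (by norm_num) hx2 (ho3 hv1) h2
    exact hG.no21 z hz
  have hb : ∀ v, rho K σ f v = v → v + rho K σ b0 v + rho K σ b0 (rho K σ b0 v) = 0 := by
    intro v hv
    by_contra hN
    set B := rho K σ b0 with hB
    set F := rho K σ f with hF
    have hfb : F * B = B * F := by rw [hF, hB, ← map_mul, ← map_mul, R3.fb]
    have hB3 : ∀ w, B (B (B w)) = w := by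
      intro w
      have h1 : B * (B * B) = 1 := by
        rw [hB, ← map_mul, ← map_mul, ← mul_assoc, R3.bbb, map_one]
      exact congrArg (fun t : Module.End (ZMod 3) (Additive (VV K)) => t w) h1
    -- `c = f b0` has order 15
    have hf5 : f ^ 5 = 1 := by
      have := R3.f5
      simpa only [pow_succ, pow_zero, one_mul, mul_assoc] using this
    have hb3 : b0 ^ 3 = 1 := by
      have := R3.bbb
      simpa only [pow_succ, pow_zero, one_mul, mul_assoc] using this
    have hcom : Commute f b0 := R3.fb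
    have hc15 : (f * b0) ^ 15 = 1 := by
      rw [hcom.mul_pow, show 15 = 5 * 3 from rfl, pow_mul, hf5, one_pow, one_mul, show 5 * 3 = 3 * 5 from rfl, pow_mul,
        hb3, one_pow]
    have hoc : 15 ∣ orderOf (σ (f * b0)) := by
      have h5 : (σ (f * b0)) ^ 5 ≠ 1 := by
        rw [← map_pow, hcom.mul_pow, hf5, one_mul, Ne, hσ]
        have e : b0 ^ 5 = b0 * b0 := by
          rw [show 5 = 3 + 2 from rfl, pow_add, hb3, one_mul, pow_two]
        rw [e]
        decide +kernel
      have h3 : (σ (f * b0)) ^ 3 ≠ 1 := by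
        rw [← map_pow, hcom.mul_pow, hb3, mul_one, Ne, hσ]
        have e : f ^ 3 = f * (f * f) := by simp only [pow_succ, pow_zero, one_mul, mul_assoc]
        rw [e]
        decide +kernel
      have h15 : orderOf (σ (f * b0)) ∣ 15 := orderOf_dvd_of_pow_eq_one (by rw [← map_pow, hc15, map_one])
      have hle := Nat.le_of_dvd (by norm_num) h15
      have h3' : ¬ orderOf (σ (f * b0)) ∣ 3 := fun h => h3 (orderOf_dvd_iff_pow_eq_one.1 h)
      have h5' : ¬ orderOf (σ (f * b0)) ∣ 5 := fun h => h5 (orderOf_dvd_iff_pow_eq_one.1 h)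
      generalize orderOf (σ (f * b0)) = n at *
      interval_cases n <;> revert h15 h3' h5' <;> decide
    -- all lifts of `c` have order 15
    have key : ∀ h : G, QuotientGroup.mk' K h = σ (f * b0) → h ^ 15 = 1 := by
      intro h hh
      have h1 : 15 ∣ orderOf h := hoc.trans (hh ▸ orderOf_map_dvd (QuotientGroup.mk' K) h)
      have h2 : h ^ 15 ∈ K := by
        rw [← QuotientGroup.ker_mk' K, MonoidHom.mem_ker, map_pow, hh, ← map_pow, hc15, map_one]
      have h3 : orderOf (h ^ 15) = orderOf h / 15 := orderOf_pow_of_dvd (by norm_num) h1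
      by_contra hne1
      have h4 : 3 ∣ orderOf (h ^ 15) := by
        obtain ⟨n, hn⟩ := hK3 ⟨_, h2⟩
        have hn' : (h ^ 15) ^ 3 ^ n = 1 := congrArg Subtype.val hn
        obtain ⟨j, -, hj⟩ := (Nat.dvd_prime_pow Nat.prime_three).1 (orderOf_dvd_of_pow_eq_one hn')
        rw [hj]
        refine dvd_pow_self 3 ?_
        rintro rfl
        rw [pow_zero, orderOf_eq_one_iff] at hj
        exact hne1 hj
      rw [h3] at h4
      have h5 : 45 ∣ orderOf h := by
        obtain ⟨k, hk⟩ := h1
        rw [hk, Nat.mul_div_cancel_left _ (by norm_num)] at h4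
        obtain ⟨l, hl⟩ := h4
        exact ⟨l, by rw [hk, hl]; ring⟩
      obtain ⟨k, hk⟩ := h5
      have hk0 : k ≠ 0 := by
        rintro rfl
        rw [mul_zero] at hk
        exact (orderOf_pos h).ne' hk
      refine hG.no45 (h ^ k) ?_
      rw [orderOf_pow_of_dvd hk0 ⟨45, by rw [hk, mul_comm]⟩, hk, Nat.mul_div_cancel _ (Nat.pos_of_ne_zero hk0)]
    obtain ⟨g, hg⟩ := QuotientGroup.mk'_surjective K (σ (f * b0))
    set w : ℕ → Additive (VV K) := fun n => (fun w => v + rho K σ (f * b0) w)^[n] 0 with hw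
    have hw0 : w 0 = 0 := rfl
    have hws : ∀ n, w (n + 1) = v + rho K σ (f * b0) (w n) := fun n => by
      rw [hw]
      exact Function.iterate_succ_apply' _ _ _
    have hcB : ∀ u, F u = u → rho K σ (f * b0) u = B u := by
      intro u hu
      rw [map_mul, ← hF, ← hB, hfb]
      change B (F u) = B u
      rw [hu]
    have hFw : ∀ n, F (w n) = w n := by
      intro n
      induction n with
      | zero => rw [hw0, map_zero]
      | succ n ih =>
        rw [hws, map_add, hcB _ ih, hv]
        congr 1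
        have := congrArg (fun t : Module.End (ZMod 3) (Additive (VV K)) => t (w n)) hfb
        change F (B (w n)) = B (F (w n)) at this
        rw [this, ih]
    have hwB : ∀ n, w (n + 1) = v + B (w n) := fun n => by rw [hws, hcB _ (hFw n)]
    have hw3 : ∀ n, w (n + 3) = (v + B v + B (B v)) + w n := by
      intro n
      rw [hwB, hwB, hwB, map_add, map_add, map_add, hB3]
      abel
    have h15 : w 15 = (v + B v + B (B v)) + (v + B v + B (B v)) := by
      have h3 := R3.three (v + B v + B (B v))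
      have e : w 15 = (v + B v + B (B v)) + ((v + B v + B (B v)) + ((v + B v + B (B v)) + ((v + B v + B (B v)) +
          ((v + B v + B (B v)) + w 0)))) := by
        rw [hw3 12, hw3 9, hw3 6, hw3 3, hw3 0]
      rw [e, hw0, add_zero]
      generalize v + B v + B (B v) = N at h3
      calc N + (N + (N + (N + N))) = (N + N + N) + (N + N) := by abel
        _ = N + N := by rw [h3, zero_add]
    have hpow := pow_mul_formula K hg.symm v w hw0 hws 15
    have hg15 := key g hg
    have hvg : QuotientGroup.mk' K (((v.toMul : VV K) : G) * g) = σ (f * b0) := by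
      rw [map_mul, hg, (show QuotientGroup.mk' K ((v.toMul : VV K) : G) = 1 from
        (QuotientGroup.eq_one_iff _).2 v.toMul.2.1), one_mul]
    rw [key _ hvg, hg15, mul_one] at hpow
    have hw15 : w 15 = 0 := by
      by_contra h
      exact hne h hpow.symm
    rw [h15] at hw15
    exact hN (R3.eq_zero_of_neg (eq_neg_of_add_eq_zero_left hw15))
  have h0 := R3.main hz ha hb (Additive.ofMul v0)
  exact hv0 h0

end

end Cfsg.Agent.H407.Three
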